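import Cfsg.Agent.Lib.Transfer.TwoPrimeClasses

/-!
# The density of elements whose class size is divisible by a prime

If `G` has no normal `p`-complement, at least half of the elements of `G` have class size divisible
by `p`. Summing over the vertices of the class-size prime graph bounds the number of vertices by
twice the maximum number of primes dividing one class size.
-/

set_option autoImplicit false

namespace Cfsg.Agent.Lib.ClassGraph.Density

open Cfsg Cfsg.Agent.Lib.Transfer.ClassSize Cfsg.Agent.Lib.Transfer.TwoPrimeClasses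

universe u

variable {G : Type u} [Group G] [Finite G]

/-- An element whose class size is prime to `r` centralizes a Sylow `r`-subgroup. -/
theorem exists_sylow_centralizer_of_not_dvd (r : ℕ) [Fact r.Prime] {x : G}
    (hr : ¬ r ∣ (Subgroup.centralizer ({x} : Set G)).index) :
    ∃ S' : Sylow r G, x ∈ Subgroup.centralizer ((S' : Subgroup G) : Set G) := by
  obtain ⟨Q, -, hQ⟩ := exists_sylow_of_not_dvd_index r hr (Commute.one_left x) ⟨0, by simp⟩
  exact ⟨Q, Subgroup.mem_centralizer_iff.mpr (fun z hz => (hQ z hz).symm)⟩

/-- The number of elements with class size prime to `r` is at most `|Syl_r| · |C(S)|`. -/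
theorem card_not_dvd_le (r : ℕ) [Fact r.Prime] (S : Sylow r G) :
    Nat.card {x : G // ¬ r ∣ (Subgroup.centralizer ({x} : Set G)).index} ≤
      Nat.card (Sylow r G) * Nat.card (Subgroup.centralizer ((S : Subgroup G) : Set G)) := by
  classical
  haveI := Fintype.ofFinite G
  haveI := Fintype.ofFinite (Sylow r G)
  let A : Sylow r G → Finset G := fun S' =>
    Finset.univ.filter (fun x => x ∈ Subgroup.centralizer ((S' : Subgroup G) : Set G))
  have hA : ∀ S' : Sylow r G, (A S').card = Nat.card (Subgroup.centralizer ((S : Subgroup G) : Set G)) := by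
    intro S'
    rw [card_centralizer_sylow_eq S S', Nat.card_eq_fintype_card, Fintype.card_subtype]
  have hsub : (Finset.univ.filter (fun x : G => ¬ r ∣ (Subgroup.centralizer ({x} : Set G)).index)) ⊆
      Finset.univ.biUnion A := by
    intro x hx
    obtain ⟨S', hS'⟩ := exists_sylow_centralizer_of_not_dvd r (Finset.mem_filter.mp hx).2
    exact Finset.mem_biUnion.mpr ⟨S', Finset.mem_univ _, Finset.mem_filter.mpr ⟨Finset.mem_univ _, hS'⟩⟩
  have h1 := Finset.card_le_card hsub
  have h2 : (Finset.univ.biUnion A).card ≤ ∑ S', (A S').card := Finset.card_biUnion_le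
  have h3 : (∑ S', (A S').card) = Nat.card (Sylow r G) * Nat.card (Subgroup.centralizer ((S : Subgroup G) : Set G)) := by
    rw [Finset.sum_congr rfl (fun S' _ => hA S'), Finset.sum_const, smul_eq_mul, Finset.card_univ,
      Nat.card_eq_fintype_card (α := Sylow r G)]
  rw [Nat.card_eq_fintype_card, Fintype.card_subtype]
  omega

/-- If `G` has no normal `r`-complement, at most half of the elements of `G` have class size prime
to `r`. -/
theorem two_mul_card_not_dvd_le (r : ℕ) [Fact r.Prime] (hno : ¬ HasNormalPComplement r G) :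
    2 * Nat.card {x : G // ¬ r ∣ (Subgroup.centralizer ({x} : Set G)).index} ≤ Nat.card G := by
  obtain ⟨S⟩ : Nonempty (Sylow r G) := inferInstance
  have hS : ¬ Subgroup.normalizer ((S : Subgroup G) : Set G) ≤
      Subgroup.centralizer ((S : Subgroup G) : Set G) := fun hS =>
    hno ⟨S, _, inferInstance, MonoidHom.ker_transferSylow_isComplement' S hS⟩
  have h1 := card_not_dvd_le r S
  have h2 := two_mul_card_sylow_mul_le S hS
  omega

/-- The vertices of the class-size prime graph divide the order of the group. -/
theorem dvd_card_of_dvd_index {r : ℕ} {x : G} (h : r ∣ (Subgroup.centralizer ({x} : Set G)).index) :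
    r ∣ Nat.card G :=
  h.trans (Subgroup.index_dvd_card _)

/-- Counting: with at most `σ` primes per class size and `V` a finite set of primes, the total number
of pairs (element, vertex dividing its class size) is at most `σ |G|`. -/
theorem sum_card_dvd_le (σ : ℕ) (hσ : ∀ x : G, ((Subgroup.centralizer ({x} : Set G)).index).primeFactors.card ≤ σ)
    (V : Finset ℕ) (hV : ∀ p ∈ V, p.Prime) :
    ∑ p ∈ V, Nat.card {x : G // p ∣ (Subgroup.centralizer ({x} : Set G)).index} ≤ σ * Nat.card G := by
  classical
  haveI := Fintype.ofFinite G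
  have h1 : ∀ p ∈ V, Nat.card {x : G // p ∣ (Subgroup.centralizer ({x} : Set G)).index} =
      ∑ x : G, if p ∣ (Subgroup.centralizer ({x} : Set G)).index then 1 else 0 := by
    intro p _
    rw [Nat.card_eq_fintype_card, Fintype.card_subtype, Finset.card_filter]
  rw [Finset.sum_congr rfl h1, Finset.sum_comm]
  calc ∑ x : G, ∑ p ∈ V, (if p ∣ (Subgroup.centralizer ({x} : Set G)).index then 1 else 0)
      ≤ ∑ _x : G, σ := by
        refine Finset.sum_le_sum (fun x _ => ?_)
        rw [← Finset.card_filter]
        refine le_trans (Finset.card_le_card ?_) (hσ x)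
        intro p hp
        obtain ⟨hpV, hpd⟩ := Finset.mem_filter.mp hp
        exact Nat.mem_primeFactors.mpr ⟨hV p hpV, hpd, (Subgroup.index_ne_zero_of_finite)⟩
    _ = σ * Nat.card G := by
        rw [Finset.sum_const, smul_eq_mul, Finset.card_univ, Nat.card_eq_fintype_card, mul_comm]

/-- Complementary counts. -/
theorem card_dvd_add_card_not_dvd (r : ℕ) :
    Nat.card {x : G // r ∣ (Subgroup.centralizer ({x} : Set G)).index} +
      Nat.card {x : G // ¬ r ∣ (Subgroup.centralizer ({x} : Set G)).index} = Nat.card G := by
  classical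
  haveI := Fintype.ofFinite G
  simp only [Nat.card_eq_fintype_card]
  have h1 := Fintype.card_subtype_compl (fun x : G => r ∣ (Subgroup.centralizer ({x} : Set G)).index)
  have h2 := Fintype.card_subtype_le (fun x : G => r ∣ (Subgroup.centralizer ({x} : Set G)).index)
  omega

/-- The vertex set of the class-size prime graph as a finset. -/
noncomputable def vertices (G : Type u) [Group G] [Finite G] : Finset ℕ := by
  classical
  exact (Nat.card G).primeFactors.filter (fun p => ∃ x : G, p ∣ (Subgroup.centralizer ({x} : Set G)).index)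

theorem mem_vertices {p : ℕ} : p ∈ vertices G ↔ p.Prime ∧ ∃ x : G, p ∣ (Subgroup.centralizer ({x} : Set G)).index := by
  classical
  unfold vertices
  simp only [Finset.mem_filter, Nat.mem_primeFactors]
  constructor
  · rintro ⟨⟨hp, -, -⟩, hx⟩
    exact ⟨hp, hx⟩
  · rintro ⟨hp, x, hx⟩
    exact ⟨⟨hp, dvd_card_of_dvd_index hx, Nat.card_pos.ne'⟩, x, hx⟩

theorem card_vertices_set :
    Nat.card {p : ℕ | p.Prime ∧ ∃ x : G, p ∣ (Subgroup.centralizer ({x} : Set G)).index} = (vertices G).card := by
  have hset : {p : ℕ | p.Prime ∧ ∃ x : G, p ∣ (Subgroup.centralizer ({x} : Set G)).index} = ↑(vertices G) := by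
    ext p
    simp [mem_vertices]
  rw [hset, Nat.card_coe_set_eq, Set.ncard_coe_finset]

/-- At least half of the group has class size divisible by a prime without a normal complement. -/
theorem card_le_two_mul_dvd (r : ℕ) (hr : r.Prime) (hno : ¬ HasNormalPComplement r G) :
    Nat.card G ≤ 2 * Nat.card {x : G // r ∣ (Subgroup.centralizer ({x} : Set G)).index} := by
  haveI : Fact r.Prime := ⟨hr⟩
  have h1 := two_mul_card_not_dvd_le (G := G) r hno
  have h2 := card_dvd_add_card_not_dvd (G := G) r
  omega

/-- Statement S4149. -/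
theorem card_vertices_le (σ : ℕ)
    (hσ : ∀ x : G, ((Subgroup.centralizer ({x} : Set G)).index).primeFactors.card ≤ σ)
    (hnil : ∀ p q : ℕ, p.Prime → q.Prime → p ∣ Nat.card G → q ∣ Nat.card G →
      HasNormalPComplement p G → HasNormalPComplement q G → p = q) :
    (vertices G).card ≤ 2 * σ := by
  classical
  have hgpos : 0 < Nat.card G := Nat.card_pos
  have hV : ∀ p ∈ vertices G, p.Prime := fun p hp => (mem_vertices.mp hp).1
  have hsum := sum_card_dvd_le σ hσ (vertices G) hV
  by_cases hex : ∃ p ∈ vertices G, HasNormalPComplement p G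
  · obtain ⟨p₀, hp₀, hc₀⟩ := hex
    have hp₀' := mem_vertices.mp hp₀
    have hrest : ∀ p ∈ (vertices G).erase p₀, Nat.card G ≤
        2 * Nat.card {x : G // p ∣ (Subgroup.centralizer ({x} : Set G)).index} := by
      intro p hp
      obtain ⟨hne, hpV⟩ := Finset.mem_erase.mp hp
      have hpV' := mem_vertices.mp hpV
      refine card_le_two_mul_dvd p hpV'.1 (fun hc => hne ?_)
      obtain ⟨x, hx⟩ := hpV'.2
      obtain ⟨y, hy⟩ := hp₀'.2
      exact hnil p p₀ hpV'.1 hp₀'.1 (dvd_card_of_dvd_index hx) (dvd_card_of_dvd_index hy) hc hc₀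
    have hpos : 1 ≤ Nat.card {x : G // p₀ ∣ (Subgroup.centralizer ({x} : Set G)).index} := by
      obtain ⟨y, hy⟩ := hp₀'.2
      haveI : Nonempty {x : G // p₀ ∣ (Subgroup.centralizer ({x} : Set G)).index} := ⟨⟨y, hy⟩⟩
      exact Nat.card_pos
    have hsplit := Finset.add_sum_erase (vertices G)
      (fun p => Nat.card {x : G // p ∣ (Subgroup.centralizer ({x} : Set G)).index}) hp₀
    have hlow : ((vertices G).erase p₀).card * Nat.card G ≤
        2 * ∑ p ∈ (vertices G).erase p₀, Nat.card {x : G // p ∣ (Subgroup.centralizer ({x} : Set G)).index} := by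
      rw [Finset.mul_sum, ← smul_eq_mul, ← Finset.sum_const]
      exact Finset.sum_le_sum hrest
    have hcard := Finset.card_erase_add_one hp₀
    have hlt : ((vertices G).erase p₀).card * Nat.card G < (2 * σ) * Nat.card G := by
      have : (2 * σ) * Nat.card G = 2 * (σ * Nat.card G) := by ring
      rw [this]
      omega
    have := Nat.lt_of_mul_lt_mul_right hlt
    omega
  · push Not at hex
    have hlow : (vertices G).card * Nat.card G ≤
        2 * ∑ p ∈ vertices G, Nat.card {x : G // p ∣ (Subgroup.centralizer ({x} : Set G)).index} := by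
      rw [Finset.mul_sum, ← smul_eq_mul, ← Finset.sum_const]
      exact Finset.sum_le_sum (fun p hp => card_le_two_mul_dvd p (hV p hp) (hex p hp))
    have hle : (vertices G).card * Nat.card G ≤ (2 * σ) * Nat.card G := by
      have : (2 * σ) * Nat.card G = 2 * (σ * Nat.card G) := by ring
      rw [this]
      omega
    exact Nat.le_of_mul_le_mul_right hle hgpos

end Cfsg.Agent.Lib.ClassGraph.Density
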